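import Cfsg.Agent.H275.SylowChain
import Cfsg.Agent.S0058

set_option autoImplicit false

/-!
# Strongly `p`-embedded subgroups: normal subgroups, generation by centralizers
-/

namespace Cfsg.Agent.H275.StrongEmb

open Cfsg.Agent.H275.SylowChain

variable {G : Type*} [Group G]

/-- The subgroup of products `x ^ i * y ^ j` for commuting `x`, `y`. -/
def prodSub {x y : G} (h : Commute x y) : Subgroup G where
  carrier := {g | ∃ i j : ℤ, g = x ^ i * y ^ j}
  one_mem' := ⟨0, 0, by simp⟩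
  mul_mem' := by
    rintro _ _ ⟨i, j, rfl⟩ ⟨k, l, rfl⟩
    refine ⟨i + k, j + l, ?_⟩
    have h1 : Commute (y ^ j) (x ^ k) := (h.symm.zpow_left j).zpow_right k
    rw [zpow_add, zpow_add, mul_assoc (x ^ i), ← mul_assoc (y ^ j), h1.eq]
    group
  inv_mem' := by
    rintro _ ⟨i, j, rfl⟩
    refine ⟨-i, -j, ?_⟩
    have h1 : Commute (x ^ (-i)) (y ^ (-j)) := (h.zpow_left _).zpow_right _
    rw [mul_inv_rev, ← zpow_neg, ← zpow_neg, h1.eq]

theorem mem_prodSub {x y g : G} (h : Commute x y) : g ∈ prodSub h ↔ ∃ i j : ℤ, g = x ^ i * y ^ j := Iff.rfl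

theorem commute_of_mem {x y a b : G} (h : Commute x y) (ha : a ∈ prodSub h) (hb : b ∈ prodSub h) :
    Commute a b := by
  obtain ⟨i, j, rfl⟩ := ha
  obtain ⟨k, l, rfl⟩ := hb
  have h1 : Commute (x ^ i) (x ^ k) := (Commute.refl x).zpow_zpow i k
  have h2 : Commute (x ^ i) (y ^ l) := h.zpow_zpow i l
  have h3 : Commute (y ^ j) (x ^ k) := h.symm.zpow_zpow j k
  have h4 : Commute (y ^ j) (y ^ l) := (Commute.refl y).zpow_zpow j l
  exact (h1.mul_right h2).mul_left (h3.mul_right h4)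

theorem pow_eq_one_of_mem {x y a : G} {p : ℕ} (h : Commute x y) (hx : x ^ p = 1) (hy : y ^ p = 1)
    (ha : a ∈ prodSub h) : a ^ p = 1 := by
  obtain ⟨i, j, rfl⟩ := ha
  have h2 : Commute (x ^ i) (y ^ j) := h.zpow_zpow i j
  rw [h2.mul_pow, ← zpow_natCast, ← zpow_natCast, ← zpow_mul, ← zpow_mul, mul_comm i, mul_comm j,
    zpow_mul, zpow_mul, zpow_natCast, zpow_natCast, hx, hy, one_zpow, one_zpow, one_mul]

theorem not_isCyclic {x y : G} {p : ℕ} [hp : Fact p.Prime] (h : Commute x y) (hx : orderOf x = p)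
    (hy : orderOf y = p) (hxy : y ∉ Subgroup.zpowers x) : ¬ IsCyclic (prodSub h) := by
  intro hc
  obtain ⟨⟨g, hg⟩, hgen⟩ := hc.exists_generator
  have hgp : g ^ p = 1 := pow_eq_one_of_mem h (hx ▸ pow_orderOf_eq_one x) (hy ▸ pow_orderOf_eq_one y) hg
  have hx1 : x ∈ prodSub h := ⟨1, 0, by simp⟩
  have hy1 : y ∈ prodSub h := ⟨0, 1, by simp⟩
  have hgx : x ∈ Subgroup.zpowers g := by
    obtain ⟨n, hn⟩ := hgen ⟨x, hx1⟩
    exact ⟨n, congrArg Subtype.val hn⟩
  have hgy : y ∈ Subgroup.zpowers g := by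
    obtain ⟨n, hn⟩ := hgen ⟨y, hy1⟩
    exact ⟨n, congrArg Subtype.val hn⟩
  have hfin : Finite (Subgroup.zpowers g) := by
    apply Nat.finite_of_card_ne_zero
    rw [Nat.card_zpowers]
    exact (orderOf_pos_iff.2 (isOfFinOrder_iff_pow_eq_one.2 ⟨p, hp.out.pos, hgp⟩)).ne'
  have h1 : Subgroup.zpowers x = Subgroup.zpowers g := by
    apply Subgroup.eq_of_le_of_card_ge (Subgroup.zpowers_le.2 hgx)
    rw [Nat.card_zpowers, Nat.card_zpowers, hx]
    exact Nat.le_of_dvd hp.out.pos (orderOf_dvd_of_pow_eq_one hgp)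
  rw [h1] at hxy
  exact hxy hgy

variable [Finite G] {p : ℕ} [hp : Fact p.Prime]

/-- A normal `p'`-subgroup lies in a strongly `p`-embedded subgroup of `p`-rank at least two. -/
theorem le_of_coprime {H : Subgroup G} (h : SE p H) {x y : G} (hxy : Commute x y) (hx : orderOf x = p)
    (hy : orderOf y = p) (hyx : y ∉ Subgroup.zpowers x) (hxH : x ∈ H) (hyH : y ∈ H)
    (K : Subgroup G) [K.Normal] (hK : ¬ p ∣ Nat.card K) : K ≤ H := by
  have hcomm : IsMulCommutative (prodSub hxy) := ⟨⟨fun a b => Subtype.ext (commute_of_mem hxy a.2 b.2)⟩⟩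
  have hAp : IsPGroup p (prodSub hxy) := by
    rintro ⟨a, ha⟩
    exact ⟨1, Subtype.ext (by
      rw [pow_one]
      exact pow_eq_one_of_mem hxy (hx ▸ pow_orderOf_eq_one x) (hy ▸ pow_orderOf_eq_one y) ha)⟩
  have hcop : (Nat.card (prodSub hxy)).Coprime (Nat.card K) := by
    obtain ⟨n, hn⟩ := IsPGroup.iff_card.1 hAp
    rw [hn]
    exact Nat.Coprime.pow_left n ((Nat.Prime.coprime_iff_not_dvd hp.out).2 hK)
  have hnorm : prodSub hxy ≤ Subgroup.normalizer (K : Set G) := by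
    rw [Subgroup.normalizer_eq_top]; exact le_top
  rw [← Cfsg.Agent.S0058.result (prodSub hxy) K (not_isCyclic hxy hx hy hyx) hnorm hcop]
  refine iSup₂_le (fun a ha => inf_le_right.trans ?_)
  have hap : orderOf a = p := orderOf_eq_prime
    (pow_eq_one_of_mem hxy (hx ▸ pow_orderOf_eq_one x) (hy ▸ pow_orderOf_eq_one y) ha.1) ha.2
  refine h.centralizer_le hap ?_
  obtain ⟨i, j, rfl⟩ := ha.1
  exact H.mul_mem (H.zpow_mem hxH i) (H.zpow_mem hyH j)

/-- A normal subgroup has a Sylow subgroup inside any given Sylow subgroup. -/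
theorem exists_sylow_le_of_normal (N : Subgroup G) [N.Normal] (T : Sylow p G) :
    ∃ R : Sylow p N, (R : Subgroup N).map N.subtype ≤ (T : Subgroup G) := by
  obtain ⟨R0⟩ : Nonempty (Sylow p N) := inferInstance
  have h1 : IsPGroup p ((R0 : Subgroup N).map N.subtype) := R0.isPGroup'.map _
  obtain ⟨T0, hT0⟩ := h1.exists_le_sylow
  obtain ⟨g, hg⟩ := MulAction.exists_smul_eq G T0 T
  refine ⟨(MulAut.conjNormal g : MulAut N) • R0, ?_⟩
  rintro _ ⟨r, hr, rfl⟩
  rw [SetLike.mem_coe, Sylow.pointwise_smul_def, Subgroup.mem_pointwise_smul_iff_inv_smul_mem] at hr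
  rw [← hg, Sylow.coe_subgroup_smul, Subgroup.mem_pointwise_smul_iff_inv_smul_mem]
  have h2 := hT0 (Subgroup.mem_map_of_mem N.subtype hr)
  have h3 : (N.subtype ((MulAut.conjNormal g : MulAut N)⁻¹ • r) : G) = (MulAut.conj g)⁻¹ • (N.subtype r) := by
    rw [← map_inv, ← map_inv]
    simp [MulAut.smul_def]
  rw [h3] at h2
  exact h2

/-- If `R` is a Sylow `p`-subgroup of `N` and every element of `N` of order prime to `p` lies in `K`, then
`K` and `R` generate `N`. -/
theorem sup_eq_top_of_coprime {K : Subgroup G} (hK : ∀ g : G, (orderOf g).Coprime p → g ∈ K)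
    (R : Sylow p G) : K ⊔ (R : Subgroup G) = ⊤ := by
  rw [← Subgroup.index_eq_one]
  by_contra hne
  obtain ⟨q, hq, hqd⟩ := Nat.exists_prime_and_dvd hne
  have : Fact q.Prime := ⟨hq⟩
  by_cases hqp : q = p
  · subst hqp
    exact R.not_dvd_index (hqd.trans (Subgroup.index_dvd_of_le le_sup_right))
  · obtain ⟨Q⟩ : Nonempty (Sylow q G) := inferInstance
    have hQK : (Q : Subgroup G) ≤ K := by
      intro g hg
      apply hK
      obtain ⟨n, hn⟩ := IsPGroup.iff_orderOf.1 Q.isPGroup' ⟨g, hg⟩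
      rw [Subgroup.orderOf_mk] at hn
      rw [hn]
      exact Nat.Coprime.pow_left n ((Nat.coprime_primes hq hp.out).2 hqp)
    exact Q.not_dvd_index (hqd.trans (Subgroup.index_dvd_of_le (hQK.trans le_sup_left)))

/-- **S3059**: `G = H · O^p(N)`. -/
theorem sup_eq_top {H : Subgroup G} (h : SE p H) (N : Subgroup G) [N.Normal] (hN : p ∣ Nat.card N) :
    H ⊔ Subgroup.closure {g : G | g ∈ N ∧ (orderOf g).Coprime p} = ⊤ := by
  set K : Subgroup G := Subgroup.closure {g : G | g ∈ N ∧ (orderOf g).Coprime p} with hKdef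
  obtain ⟨T, hT⟩ := h.exists_sylow_le
  obtain ⟨R, hR⟩ := exists_sylow_le_of_normal N T
  have hRH : (R : Subgroup N).map N.subtype ≤ H := hR.trans hT
  have hRp : p ∣ Nat.card ((R : Subgroup N).map N.subtype) := by
    rw [Subgroup.card_map_of_injective N.subtype_injective]
    exact R.dvd_card_of_dvd_card hN
  have h1 := R.normalizer_sup_eq_top
  have h2 : Subgroup.normalizer (((R : Subgroup N).map N.subtype : Subgroup G) : Set G) ≤ H :=
    h.normalizer_le hRp hRH
  rw [eq_top_iff, ← h1]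
  refine sup_le (h2.trans le_sup_left) ?_
  have h3 : K.subgroupOf N ⊔ (R : Subgroup N) = ⊤ := by
    apply sup_eq_top_of_coprime
    intro g hg
    rw [Subgroup.mem_subgroupOf, hKdef]
    apply Subgroup.subset_closure
    refine ⟨g.2, ?_⟩
    rwa [Subgroup.orderOf_coe]
  intro n hn
  have h4 : (⟨n, hn⟩ : N) ∈ K.subgroupOf N ⊔ (R : Subgroup N) := by rw [h3]; exact Subgroup.mem_top _
  have h5 := Subgroup.mem_map_of_mem N.subtype h4
  rw [Subgroup.map_sup] at h5
  have h6 : (K.subgroupOf N).map N.subtype ⊔ (R : Subgroup N).map N.subtype ≤ H ⊔ K :=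
    sup_le (le_trans (by rw [Subgroup.subgroupOf_map_subtype]; exact inf_le_left) le_sup_right)
      (hRH.trans le_sup_left)
  exact h6 h5

/-- An element of order `p` inside a nontrivial `p`-part of a normal subgroup, in a given Sylow. -/
theorem exists_mem_of_normal (N : Subgroup G) [N.Normal] (hN : p ∣ Nat.card N) (T : Sylow p G) :
    ∃ x : G, x ∈ N ∧ x ∈ (T : Subgroup G) ∧ orderOf x = p := by
  obtain ⟨R, hR⟩ := exists_sylow_le_of_normal N T
  obtain ⟨x, hx⟩ := exists_prime_orderOf_dvd_card' (G := R) p (R.dvd_card_of_dvd_card hN)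
  refine ⟨((x : N) : G), (x : N).2, hR ⟨x, x.2, rfl⟩, ?_⟩
  rw [Subgroup.orderOf_coe, Subgroup.orderOf_coe, hx]

/-- **S3058**. -/
theorem dvd_card_inf {H : Subgroup G} (h : SE p H) (N M : Subgroup G) [N.Normal] [M.Normal]
    (hN : p ∣ Nat.card N) (hM : p ∣ Nat.card M) : p ∣ Nat.card ↥(N ⊓ M) := by
  by_contra hK
  obtain ⟨T, hT⟩ := h.exists_sylow_le
  obtain ⟨x, hxN, hxT, hx⟩ := exists_mem_of_normal N hN T
  obtain ⟨y, hyM, hyT, hy⟩ := exists_mem_of_normal M hM T
  have hbot : ∀ g : G, g ∈ N → g ∈ M → g ∈ (T : Subgroup G) → g = 1 := by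
    intro g hg1 hg2 hg3
    obtain ⟨n, hn⟩ := IsPGroup.iff_orderOf.1 T.isPGroup' ⟨g, hg3⟩
    rw [Subgroup.orderOf_mk] at hn
    rcases Nat.eq_zero_or_pos n with rfl | hn0
    · rw [pow_zero, orderOf_eq_one_iff] at hn; exact hn
    · exfalso
      apply hK
      refine dvd_trans (dvd_trans (dvd_pow_self p hn0.ne') hn.symm.dvd) ?_
      have := orderOf_dvd_natCard (⟨g, Subgroup.mem_inf.2 ⟨hg1, hg2⟩⟩ : ↥(N ⊓ M))
      rwa [Subgroup.orderOf_mk] at this
  have hxy : Commute x y := by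
    have h1 : x * y * x⁻¹ * y⁻¹ = 1 := by
      apply hbot
      · have : x * y * x⁻¹ * y⁻¹ = x * (y * x⁻¹ * y⁻¹) := by group
        rw [this]
        exact N.mul_mem hxN (Subgroup.Normal.conj_mem inferInstance _ (N.inv_mem hxN) y)
      · exact M.mul_mem (Subgroup.Normal.conj_mem inferInstance _ hyM x) (M.inv_mem hyM)
      · exact mul_mem (mul_mem (mul_mem hxT hyT) (inv_mem hxT)) (inv_mem hyT)
    have h2 : x * y = y * x := by
      have : x * y = (x * y * x⁻¹ * y⁻¹) * (y * x) := by group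
      rw [this, h1, one_mul]
    exact h2
  have hyx : y ∉ Subgroup.zpowers x := by
    intro hc
    have h1 : y ∈ N := (Subgroup.zpowers_le.2 hxN) hc
    have h2 := hbot y h1 hyM hyT
    rw [h2, orderOf_one] at hy
    exact hp.out.one_lt.ne hy
  have hKH : N ⊓ M ≤ H := le_of_coprime h hxy hx hy hyx (hT hxT) (hT hyT) (N ⊓ M) hK
  refine h.not_le_of_normal N hN ?_
  intro n hn
  have hmem : n * y * n⁻¹ ∈ H := by
    have h1 : n * y * n⁻¹ * y⁻¹ ∈ N ⊓ M := by
      constructor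
      · have : n * y * n⁻¹ * y⁻¹ = n * (y * n⁻¹ * y⁻¹) := by group
        rw [this]
        exact N.mul_mem hn (Subgroup.Normal.conj_mem inferInstance _ (N.inv_mem hn) y)
      · exact M.mul_mem (Subgroup.Normal.conj_mem inferInstance _ hyM n) (M.inv_mem hyM)
    have h2 : n * y * n⁻¹ = (n * y * n⁻¹ * y⁻¹) * y := by group
    rw [h2]
    exact H.mul_mem (hKH h1) (hT hyT)
  refine h.mem_of_le (X := Subgroup.zpowers (n * y * n⁻¹)) ?_ (Subgroup.zpowers_le.2 hmem) ?_
  · rw [Nat.card_zpowers]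
    have h3 : n * y * n⁻¹ = MulAut.conj n y := rfl
    rw [h3, MulEquiv.orderOf_eq, hy]
  · rw [Subgroup.zpowers_le, mem_map_conj]
    have : n⁻¹ * (n * y * n⁻¹) * n = y := by group
    rw [this]
    exact hT hyT

end Cfsg.Agent.H275.StrongEmb
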