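import Cfsg.Agent.H275.StrongEmb
import Cfsg.Agent.Solvable.UniqueOrderP
import Cfsg.Prelude.Def_Local
import Cfsg.Prelude.Def_Solvable

set_option autoImplicit false

/-!
# `p`-solvable groups whose Sylow graph is disconnected
-/

namespace Cfsg.Agent.H275.PSolvChain

open Cfsg.Agent.H275.SylowChain Cfsg.Agent.H275.StrongEmb
open Cfsg.Agent.Solvable.UniqueOrderP (UniqueP)

theorem uniqueP_of_equiv {A B : Type*} [Group A] [Group B] {p : ℕ} (e : A ≃* B) (h : UniqueP p B) :
    UniqueP p A := by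
  intro x y hx hxp hyp
  have h1 := h (e x) (e y) (by rwa [ne_eq, map_eq_one_iff e e.injective]) (by rw [← map_pow, hxp, map_one])
    (by rw [← map_pow, hyp, map_one])
  obtain ⟨n, hn⟩ := h1
  refine ⟨n, e.injective ?_⟩
  rw [← hn, map_zpow]

/-- A cyclic group has at most one subgroup of order `p`. -/
theorem uniqueP_of_isCyclic {G : Type*} [Group G] [Finite G] {p : ℕ} [hp : Fact p.Prime] [hc : IsCyclic G] :
    UniqueP p G := by
  classical
  intro x y hx hxp hyp
  have : Fintype G := Fintype.ofFinite G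
  have hox : orderOf x = p := orderOf_eq_prime hxp hx
  have h1 := hc.card_pow_eq_one_le (n := p) hp.out.pos
  have h2 : ((Subgroup.zpowers x : Subgroup G) : Set G).toFinset ⊆ Finset.univ.filter (fun a : G => a ^ p = 1) := by
    intro z hz
    rw [Set.mem_toFinset] at hz
    obtain ⟨n, rfl⟩ := hz
    rw [Finset.mem_filter]
    refine ⟨Finset.mem_univ _, ?_⟩
    change (x ^ n) ^ p = 1
    rw [← zpow_natCast, ← zpow_mul, mul_comm, zpow_mul, zpow_natCast, hxp, one_zpow]
  have h3 : (((Subgroup.zpowers x : Subgroup G) : Set G).toFinset).card = p := by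
    rw [Set.toFinset_card, ← Nat.card_eq_fintype_card]
    change Nat.card (Subgroup.zpowers x) = p
    rw [Nat.card_zpowers, hox]
  have h4 := Finset.eq_of_subset_of_card_le h2 (by rw [h3]; exact h1)
  have h5 : y ∈ Finset.univ.filter (fun a : G => a ^ p = 1) := by simp [hyp]
  rw [← h4, Set.mem_toFinset] at h5
  exact h5

/-- A generalized quaternion group (or the cyclic group of order four) has one involution. -/
theorem uniqueP_quaternion (n : ℕ) : UniqueP 2 (QuaternionGroup (2 ^ n)) := by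
  have hne : NeZero (2 ^ n) := ⟨by positivity⟩
  have hne2 : NeZero (2 * 2 ^ n) := ⟨by positivity⟩
  have key : ∀ x : QuaternionGroup (2 ^ n), x ≠ 1 → x ^ 2 = 1 →
      x = QuaternionGroup.a ((2 ^ n : ℕ) : ZMod (2 * 2 ^ n)) := by
    intro x hx hx2
    rw [sq] at hx2
    cases x with
    | a i =>
      rw [QuaternionGroup.a_mul_a, QuaternionGroup.one_def] at hx2
      have h1 : i + i = 0 := QuaternionGroup.a.inj hx2
      have h2 : i ≠ 0 := by rintro rfl; exact hx rfl
      congr 1
      have h3 : ((2 * i.val : ℕ) : ZMod (2 * 2 ^ n)) = 0 := by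
        have h7 : ((i.val : ℕ) : ZMod (2 * 2 ^ n)) = i := by rw [ZMod.natCast_val, ZMod.cast_id', id]
        rw [two_mul i.val, Nat.cast_add, h7, h1]
      rw [ZMod.natCast_eq_zero_iff] at h3
      have h4 : i.val < 2 * 2 ^ n := ZMod.val_lt i
      have h5 : i.val ≠ 0 := by rwa [ne_eq, ZMod.val_eq_zero]
      have h6 : i.val = 2 ^ n := by
        obtain ⟨c, hc⟩ := h3
        have hpos : 0 < 2 ^ n := by positivity
        have hc1 : c = 1 := by
          rcases Nat.lt_trichotomy c 1 with hc0 | hc0 | hc0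
          · have : c = 0 := by omega
            subst this; omega
          · exact hc0
          · exfalso
            have : 2 * 2 ^ n * 2 ≤ 2 * 2 ^ n * c := Nat.mul_le_mul le_rfl hc0
            omega
        subst hc1
        omega
      have h7 : ((i.val : ℕ) : ZMod (2 * 2 ^ n)) = i := by rw [ZMod.natCast_val, ZMod.cast_id', id]
      calc i = ((i.val : ℕ) : ZMod (2 * 2 ^ n)) := h7.symm
        _ = _ := by exact congrArg Nat.cast h6
    | xa i =>
      exfalso
      rw [QuaternionGroup.xa_mul_xa, QuaternionGroup.one_def] at hx2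
      have h1 : ((2 ^ n : ℕ) : ZMod (2 * 2 ^ n)) + i - i = 0 := QuaternionGroup.a.inj hx2
      rw [add_sub_cancel_right, ZMod.natCast_eq_zero_iff] at h1
      have h2 := Nat.le_of_dvd (by positivity) h1
      have hpos : 0 < 2 ^ n := by positivity
      omega
  intro x y hx hxp hyp
  by_cases hy : y = 1
  · rw [hy]; exact one_mem _
  · rw [key x hx hxp, key y hy hyp]
    exact Subgroup.mem_zpowers _

variable {G : Type*} [Group G] [Finite G] {p : ℕ} [hp : Fact p.Prime]

/-- A `p`-group with two subgroups of order `p` has a noncyclic commuting pair of elements of order `p`. -/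
theorem exists_pair_of_not_uniqueP {P : Type*} [Group P] [Finite P] (hP : IsPGroup p P) (h : ¬ UniqueP p P) :
    ∃ x y : P, Commute x y ∧ orderOf x = p ∧ orderOf y = p ∧ y ∉ Subgroup.zpowers x := by
  unfold UniqueP at h
  push Not at h
  obtain ⟨a, b, ha, hap, hbp, hb⟩ := h
  have : Nontrivial P := ⟨⟨a, 1, ha⟩⟩
  have hZ : Nontrivial (Subgroup.center P) := hP.center_nontrivial
  have hoa : orderOf a = p := orderOf_eq_prime hap ha
  have hb1 : b ≠ 1 := by rintro rfl; exact hb (one_mem _)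
  have hob : orderOf b = p := orderOf_eq_prime hbp hb1
  have hZp : p ∣ Nat.card (Subgroup.center P) := by
    apply dvd_card_of_isPGroup (hP.to_subgroup _)
    exact (Subgroup.nontrivial_iff_ne_bot _).1 hZ
  obtain ⟨z, hz⟩ := exists_prime_orderOf_dvd_card' p hZp
  have hz' : orderOf (z : P) = p := by rw [Subgroup.orderOf_coe, hz]
  have hcom : ∀ w : P, Commute (z : P) w := fun w => (Subgroup.mem_center_iff.1 z.2 w).symm
  by_cases haz : a ∈ Subgroup.zpowers (z : P)
  · refine ⟨z, b, hcom b, hz', hob, ?_⟩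
    intro hbz
    apply hb
    have h1 : Subgroup.zpowers a = Subgroup.zpowers (z : P) := by
      apply Subgroup.eq_of_le_of_card_ge (Subgroup.zpowers_le.2 haz)
      rw [Nat.card_zpowers, Nat.card_zpowers, hoa, hz']
    rw [h1]; exact hbz
  · exact ⟨z, a, hcom a, hz', hoa, haz⟩

/-- In a `p`-solvable group of order divisible by `p`, a normal subgroup `F` of order divisible by `p` with a normal
`p'`-subgroup `K` of `G` and `F/K` a `p`-group. -/
theorem exists_normal_pair (hdiv : p ∣ Nat.card G) (hsol : Cfsg.IsPSolvable p G) :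
    ∃ K F : Subgroup G, K.Normal ∧ F.Normal ∧ K ≤ F ∧ ¬ p ∣ Nat.card K ∧ p ∣ Nat.card F ∧
      ∃ m : ℕ, K.relIndex F = p ^ m := by
  obtain ⟨n, H, h0, hl, hmono, hnorm, hfac⟩ := hsol
  have hex : ∃ k : ℕ, ∃ hk : k < n + 1, p ∣ Nat.card (H ⟨k, hk⟩) := by
    refine ⟨n, Nat.lt_succ_self n, ?_⟩
    have : (⟨n, Nat.lt_succ_self n⟩ : Fin (n + 1)) = Fin.last n := rfl
    rw [this, hl, Subgroup.card_top]
    exact hdiv
  classical
  obtain ⟨hk, hkp⟩ := Nat.find_spec hex
  have hmin := fun m => Nat.find_min (H := hex) (m := m)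
  generalize Nat.find hex = k at hk hkp hmin
  rcases Nat.eq_zero_or_pos k with rfl | hk0
  · exfalso
    have : (⟨0, hk⟩ : Fin (n + 1)) = 0 := rfl
    rw [this, h0, Subgroup.card_bot] at hkp
    exact hp.out.one_lt.ne' (Nat.dvd_one.1 hkp)
  · obtain ⟨j, rfl⟩ : ∃ j, k = j + 1 := ⟨k - 1, by omega⟩
    have hj : j < n := by omega
    have h1 := hmin j (Nat.lt_succ_self j)
    push Not at h1
    have h2 := h1 (by omega)
    have e1 : (⟨j, hj⟩ : Fin n).castSucc = ⟨j, by omega⟩ := rfl
    have e2 : (⟨j, hj⟩ : Fin n).succ = ⟨j + 1, hk⟩ := rfl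
    have hle : H (⟨j, hj⟩ : Fin n).castSucc ≤ H (⟨j, hj⟩ : Fin n).succ :=
      hmono (Fin.castSucc_le_succ _)
    refine ⟨H (⟨j, hj⟩ : Fin n).castSucc, H (⟨j, hj⟩ : Fin n).succ, hnorm _, hnorm _, hle, ?_, ?_, ?_⟩
    · rw [e1]; exact h2
    · rw [e2]; exact hkp
    · rcases hfac ⟨j, hj⟩ with h3 | h3
      · exact h3
      · exfalso
        have h4 : Nat.card (H (⟨j, hj⟩ : Fin n).castSucc) *
            (H (⟨j, hj⟩ : Fin n).castSucc).relIndex (H (⟨j, hj⟩ : Fin n).succ) =
            Nat.card (H (⟨j, hj⟩ : Fin n).succ) := by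
          have h5 := Subgroup.relIndex_mul_relIndex (⊥ : Subgroup G) _ _ bot_le hle
          rwa [Subgroup.relIndex_bot_left, Subgroup.relIndex_bot_left] at h5
        have h5 : p ∣ Nat.card (H (⟨j, hj⟩ : Fin n).castSucc) *
            (H (⟨j, hj⟩ : Fin n).castSucc).relIndex (H (⟨j, hj⟩ : Fin n).succ) := by
          rw [h4, e2]; exact hkp
        rcases (Nat.Prime.dvd_mul hp.out).1 h5 with h6 | h6
        · rw [e1] at h6; exact h2 h6
        · exact (Nat.Prime.coprime_iff_not_dvd hp.out).1 h3.symm h6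

/-- The nontrivial `p`-core lies in no strongly `p`-embedded subgroup. -/
theorem pCore_eq_bot_of_se {H : Subgroup G} (h : SE p H) : Cfsg.pCore p G = ⊥ := by
  unfold Cfsg.pCore
  rw [sSup_eq_bot]
  rintro N ⟨hN, hNp⟩
  by_contra hne
  obtain ⟨T, hT⟩ := h.exists_sylow_le
  have h1 : N ≤ (T : Subgroup G) := by
    obtain ⟨T0, hT0⟩ := hNp.exists_le_sylow
    obtain ⟨g, hg⟩ := MulAction.exists_smul_eq G T0 T
    intro x hx
    rw [← hg, Sylow.coe_subgroup_smul, Subgroup.mem_pointwise_smul_iff_inv_smul_mem]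
    apply hT0
    rw [← map_inv, MulAut.smul_def, MulAut.conj_apply]
    exact hN.conj_mem x hx _
  exact h.not_le_of_normal N (dvd_card_of_isPGroup hNp hne) (h1.trans hT)

theorem uniqueP_of_se (hdiv : p ∣ Nat.card G) (hsol : Cfsg.IsPSolvable p G) {H : Subgroup G} (h : SE p H)
    (P : Sylow p G) : UniqueP p P := by
  by_contra hU
  obtain ⟨T, hT⟩ := h.exists_sylow_le
  have hUT : ¬ UniqueP p T := fun hc => hU (uniqueP_of_equiv (P.equiv T) hc)
  obtain ⟨x, y, hxy, hx, hy, hyx⟩ := exists_pair_of_not_uniqueP T.isPGroup' hUT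
  have hxy' : Commute (x : G) (y : G) := congrArg Subtype.val hxy.eq
  have hyx' : (y : G) ∉ Subgroup.zpowers (x : G) := by
    rintro ⟨n, hn⟩
    exact hyx ⟨n, Subtype.ext hn⟩
  obtain ⟨K, F, hK, hF, hKF, hKp, hFp, m, hm⟩ := exists_normal_pair hdiv hsol
  have hKH : K ≤ H := le_of_coprime h hxy' (by rw [Subgroup.orderOf_coe, hx]) (by rw [Subgroup.orderOf_coe, hy])
    hyx' (hT x.2) (hT y.2) K hKp
  obtain ⟨R, hR⟩ := exists_sylow_le_of_normal F T
  refine h.not_le_of_normal F hFp ?_
  have h1 : K.subgroupOf F ⊔ (R : Subgroup F) = ⊤ := by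
    rw [← Subgroup.index_eq_one]
    by_contra hne
    obtain ⟨q, hq, hqd⟩ := Nat.exists_prime_and_dvd hne
    have h2 : q ∣ p ^ m := by
      rw [← hm]
      exact hqd.trans (Subgroup.index_dvd_of_le le_sup_left)
    have h3 : q = p := (Nat.prime_dvd_prime_iff_eq hq hp.out).1 (hq.dvd_of_dvd_pow h2)
    subst h3
    exact R.not_dvd_index (hqd.trans (Subgroup.index_dvd_of_le le_sup_right))
  intro n hn
  have h4 : (⟨n, hn⟩ : F) ∈ K.subgroupOf F ⊔ (R : Subgroup F) := by rw [h1]; exact Subgroup.mem_top _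
  have h5 := Subgroup.mem_map_of_mem F.subtype h4
  rw [Subgroup.map_sup] at h5
  have h6 : (K.subgroupOf F).map F.subtype ⊔ (R : Subgroup F).map F.subtype ≤ H :=
    sup_le (le_trans (by rw [Subgroup.subgroupOf_map_subtype]; exact inf_le_left) hKH)
      (hR.trans hT)
  exact h6 h5

/-- Conversely: `p`-rank one and trivial `p`-core give disconnectedness. -/
theorem not_chainConnected_of_uniqueP (hdiv : p ∣ Nat.card G) (hcore : Cfsg.pCore p G = ⊥) (P : Sylow p G)
    (hU : UniqueP p P) : ¬ Cfsg.IsSylowChainConnected p G := by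
  rw [chain_iff]
  intro hc
  obtain ⟨x, hx⟩ := exists_prime_orderOf_dvd_card' (G := P) p (P.dvd_card_of_dvd_card hdiv)
  have hx' : orderOf (x : G) = p := by rw [Subgroup.orderOf_coe, hx]
  have hall : ∀ T : Sylow p G, (x : G) ∈ (T : Subgroup G) := by
    intro T
    have h1 := hc P T
    induction h1 with
    | refl => exact x.2
    | @tail b c _ hbc ih =>
      have hd : p ∣ Nat.card ↥((b : Subgroup G) ⊓ (c : Subgroup G)) :=
        dvd_card_of_isPGroup (b.isPGroup'.to_le inf_le_left) hbc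
      obtain ⟨⟨y, hyb⟩, hy⟩ := exists_prime_orderOf_dvd_card' p hd
      rw [Subgroup.orderOf_mk] at hy
      obtain ⟨hyb, hyc⟩ := Subgroup.mem_inf.1 hyb
      have hUb : UniqueP p b := uniqueP_of_equiv (b.equiv P) hU
      have h2 := hUb ⟨y, hyb⟩ ⟨x, ih⟩ (by
        intro h3
        have h4 : y = 1 := congrArg Subtype.val h3
        rw [h4, orderOf_one] at hy
        exact hp.out.one_lt.ne hy) (Subtype.ext (by
          change y ^ p = 1
          exact orderOf_dvd_iff_pow_eq_one.1 hy.dvd)) (Subtype.ext (by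
          change (x : G) ^ p = 1
          exact orderOf_dvd_iff_pow_eq_one.1 hx'.dvd))
      obtain ⟨n, hn⟩ := h2
      have h3 : y ^ n = (x : G) := congrArg Subtype.val hn
      rw [← h3]
      exact Subgroup.zpow_mem _ hyc n
  -- the intersection of all Sylow subgroups is a normal `p`-subgroup
  let N : Subgroup G := ⨅ T : Sylow p G, (T : Subgroup G)
  have hN : N.Normal := by
    constructor
    intro n hn g
    rw [Subgroup.mem_iInf] at hn ⊢
    intro T
    have h1 := hn (g⁻¹ • T)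
    rw [Sylow.coe_subgroup_smul, Subgroup.mem_pointwise_smul_iff_inv_smul_mem] at h1
    simpa [MulAut.smul_def, MulAut.conj_apply] using h1
  have hNp : IsPGroup p N := P.isPGroup'.to_le (iInf_le _ P)
  have h1 : N ≤ Cfsg.pCore p G := le_sSup ⟨hN, hNp⟩
  have h2 : (x : G) ∈ N := Subgroup.mem_iInf.2 hall
  have h3 := h1 h2
  rw [hcore, Subgroup.mem_bot] at h3
  rw [h3, orderOf_one] at hx'
  exact hp.out.one_lt.ne hx'

/-- **S3057**. -/
theorem main (hdiv : p ∣ Nat.card G) (hsol : Cfsg.IsPSolvable p G) (P : Sylow p G) :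
    ¬ Cfsg.IsSylowChainConnected p G ↔
      Cfsg.pCore p G = ⊥ ∧ (IsCyclic ↥P ∨ (p = 2 ∧ ∃ n : ℕ, Nonempty (↥P ≃* QuaternionGroup (2 ^ n)))) := by
  constructor
  · intro h
    obtain ⟨H, h⟩ := not_chainConnected_iff.1 h
    refine ⟨pCore_eq_bot_of_se h, ?_⟩
    rcases Cfsg.Agent.Solvable.UniqueOrderP.cyclic_or_quaternion P.isPGroup'
      (uniqueP_of_se hdiv hsol h P) with h1 | ⟨h1, m, -, h2⟩
    · exact Or.inl h1
    · exact Or.inr ⟨h1, m, h2⟩
  · rintro ⟨hcore, h | ⟨rfl, n, ⟨e⟩⟩⟩
    · exact not_chainConnected_of_uniqueP hdiv hcore P uniqueP_of_isCyclic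
    · exact not_chainConnected_of_uniqueP hdiv hcore P (uniqueP_of_equiv e (uniqueP_quaternion n))

end Cfsg.Agent.H275.PSolvChain
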