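import Cfsg.Agent.H275.Planes

set_option autoImplicit false
set_option linter.unusedSectionVars false

/-!
# Extraspecial Sylow subgroups of order `p³` and exponent `p`: bounds on `p`
-/

namespace Cfsg.Agent.H275.PlanesMain

open Matrix Cfsg.Agent.H275.Heis Cfsg.Agent.H275.GLTwoFix Cfsg.Agent.H275.Planes

variable {G : Type*} [Group G] [Finite G] {p : ℕ} [hp : Fact p.Prime] (P : Sylow p G) (D : HData p P)

/-- The group induced by the normalizer of `P` on `P / Z(P)`. -/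
noncomputable def LL : Subgroup (GL (Fin 2) (ZMod p)) :=
  (D.rep.comp (P : Subgroup G).normalizerMonoidHom).range

theorem not_dvd_card_LL : ¬ p ∣ Nat.card (LL P D) := by
  unfold LL
  rw [← Subgroup.index_ker]
  intro h
  have h1 : (P : Subgroup G).subgroupOf (Subgroup.normalizer ((P : Subgroup G) : Set G)) ≤
      (D.rep.comp (P : Subgroup G).normalizerMonoidHom).ker := by
    rintro ⟨x, hxN⟩ hx
    rw [Subgroup.mem_subgroupOf] at hx
    rw [MonoidHom.mem_ker, MonoidHom.comp_apply]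
    have h2 : (P : Subgroup G).normalizerMonoidHom ⟨x, hxN⟩ = MulAut.conj (⟨x, hx⟩ : P) := by
      ext w
      rfl
    rw [h2, D.rep_conj]
  have h2 := h.trans (Subgroup.index_dvd_of_le h1)
  have h3 := Subgroup.relIndex_mul_index (H := (P : Subgroup G))
    (K := Subgroup.normalizer ((P : Subgroup G) : Set G)) Subgroup.le_normalizer
  apply P.not_dvd_index
  rw [← h3]
  exact h2.mul_right _

theorem coe_pw (x : (P : Subgroup G)) (k : ZMod p) : ((pw x k : (P : Subgroup G)) : G) = pw (x : G) k :=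
  map_pw (P : Subgroup G).subtype x k

theorem coe_pow_p (D : HData p P) (x : P) : (x : G) ^ p = 1 := by
  have := congrArg Subtype.val (D.pow_p x)
  exact this

theorem coe_commute (a : P) : Commute (D.z : G) (a : G) := congrArg Subtype.val (D.commute_z a).eq

theorem le_chainStab (a : P) : (P : Subgroup G) ≤ chainStab p (D.z : G) (a : G) := by
  intro w hw
  refine ⟨D.c ⟨w, hw⟩ a, ?_⟩
  apply rel_mk (coe_pow_p P D _) (coe_pow_p P D _) (coe_commute P D a)
  · have h1 : (![U (D.c ⟨w, hw⟩ a) 0 0, U (D.c ⟨w, hw⟩ a) 1 0] : Fin 2 → ZMod p) = ![1, 0] := by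
      ext i
      fin_cases i <;> simp [U]
    rw [h1, E_z]
    have := (coe_commute P D ⟨w, hw⟩).eq
    simp only at this
    rw [← this]; group
  · have h1 : (![U (D.c ⟨w, hw⟩ a) 0 1, U (D.c ⟨w, hw⟩ a) 1 1] : Fin 2 → ZMod p) = ![D.c ⟨w, hw⟩ a, 1] := by
      ext i
      fin_cases i <;> simp [U]
    rw [h1]
    have h2 := congrArg (fun t : P => (t : G)) (D.conj_eq ⟨w, hw⟩ a)
    simp only [Subgroup.coe_mul, Subgroup.coe_inv] at h2
    rw [h2, coe_pw]
    unfold E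
    simp [pw_one]

theorem exists_in_LL (a : P) {lam : (ZMod p)ˣ}
    (hex : ∃ g : G, Rel (D.z : G) (a : G) g !![(lam : ZMod p), 0; 0, ((lam⁻¹ : (ZMod p)ˣ) : ZMod p)]) :
    ∃ M ∈ LL P D, (M : Matrix (Fin 2) (Fin 2) (ZMod p)) *ᵥ D.pi a = ((lam⁻¹ : (ZMod p)ˣ) : ZMod p) • D.pi a ∧
      (M : Matrix (Fin 2) (Fin 2) (ZMod p)).det = lam := by
  obtain ⟨n, hn, j, hrel⟩ := exists_normalizer P (le_chainStab P D a) (Units.mul_inv lam) hex
  set φ : MulAut P := (P : Subgroup G).normalizerMonoidHom ⟨n, hn⟩ with hφ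
  have hφw : ∀ w : P, ((φ w : P) : G) = n * (w : G) * n⁻¹ := fun w => rfl
  refine ⟨D.rep φ, ⟨⟨n, hn⟩, rfl⟩, ?_, ?_⟩
  · rw [D.rep_mulVec]
    have h1 := hrel ![0, 1]
    rw [E_a] at h1
    have h2 : (!![(lam : ZMod p), j; 0, ((lam⁻¹ : (ZMod p)ˣ) : ZMod p)] *ᵥ ![0, 1] : Fin 2 → ZMod p) =
        ![j, ((lam⁻¹ : (ZMod p)ˣ) : ZMod p)] := by
      generalize ((lam⁻¹ : (ZMod p)ˣ) : ZMod p) = m
      ext i
      fin_cases i <;> simp [Matrix.mulVec, dotProduct, Fin.sum_univ_two]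
    rw [h2] at h1
    have h3 : φ a = pw D.z j * pw a ((lam⁻¹ : (ZMod p)ˣ) : ZMod p) := by
      apply Subtype.ext
      rw [hφw, h1, Subgroup.coe_mul, coe_pw, coe_pw]
      rfl
    rw [h3, D.pi_mul, D.pi_pw, D.pi_pw, D.pi_eq_zero_iff.2 D.z_mem, smul_zero, zero_add]
  · have h1 := hrel ![1, 0]
    rw [E_z] at h1
    have h2 : (!![(lam : ZMod p), j; 0, ((lam⁻¹ : (ZMod p)ˣ) : ZMod p)] *ᵥ ![1, 0] : Fin 2 → ZMod p) =
        ![(lam : ZMod p), 0] := by
      generalize ((lam⁻¹ : (ZMod p)ˣ) : ZMod p) = m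
      ext i
      fin_cases i <;> simp [Matrix.mulVec, dotProduct, Fin.sum_univ_two]
    rw [h2] at h1
    have h3 : φ D.z = pw D.z (lam : ZMod p) := by
      apply Subtype.ext
      rw [hφw, h1, coe_pw]
      unfold E
      simp [pw_zero]
    rw [D.rep_det φ, pw_inj (D.pow_p _) D.z_ne] at h3
    exact h3

/-- **Three planes**. -/
theorem three (hp2 : p ≠ 2) (a : Fin 3 → P) (ha : ∀ i, D.pi (a i) ≠ 0)
    (hdist : ∀ i j, i ≠ j → ∀ c : ZMod p, c • D.pi (a j) ≠ D.pi (a i))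
    (hex : ∀ i, ∀ lam : (ZMod p)ˣ, ∃ g : G, Rel (D.z : G) (a i : G) g
      !![(lam : ZMod p), 0; 0, ((lam⁻¹ : (ZMod p)ˣ) : ZMod p)]) : p ≤ 13 ∧ p ≠ 11 := by
  obtain ⟨lam, hlam⟩ := IsCyclic.exists_generator (α := (ZMod p)ˣ)
  exact three_lines hp2 (LL P D) (not_dvd_card_LL P D) lam hlam (fun i => D.pi (a i)) ha hdist
    (fun i => exists_in_LL P D (a i) (hex i lam))

/-- **Seven planes**. -/
theorem seven (hp2 : p ≠ 2) (a : Fin 7 → P) (ha : ∀ i, D.pi (a i) ≠ 0)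
    (hdist : ∀ i j, i ≠ j → ∀ c : ZMod p, c • D.pi (a j) ≠ D.pi (a i))
    (hex : ∀ i, ∀ lam : (ZMod p)ˣ, ∃ g : G, Rel (D.z : G) (a i : G) g
      !![(lam : ZMod p), 0; 0, ((lam⁻¹ : (ZMod p)ˣ) : ZMod p)]) : p ≠ 13 := by
  obtain ⟨lam, hlam⟩ := IsCyclic.exists_generator (α := (ZMod p)ˣ)
  exact seven_lines hp2 (LL P D) (not_dvd_card_LL P D) lam hlam (fun i => D.pi (a i)) ha hdist
    (fun i => exists_in_LL P D (a i) (hex i lam))

/-- The elements of `P` induce all upper unitriangular matrices on a plane. -/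
theorem exists_U (a : P) (ha : D.pi a ≠ 0) (t : ZMod p) : ∃ g ∈ (P : Subgroup G), Rel (D.z : G) (a : G) g (U t) := by
  -- some element does not commute with `a`
  have hnc : ∃ w : P, D.c w a ≠ 0 := by
    by_contra hcon
    push Not at hcon
    apply ha
    rw [D.pi_eq_zero_iff, Subgroup.mem_center_iff]
    intro w
    exact D.c_eq_zero_iff.1 (hcon w)
  obtain ⟨w, hw⟩ := hnc
  set u := pw w (t / D.c w a) with hu
  refine ⟨u, u.2, ?_⟩
  obtain ⟨s, hs⟩ := le_chainStab P D a u.2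
  have h1 := hs ![0, 1]
  have h2 := congrArg (fun t : P => (t : G)) (D.conj_eq u a)
  simp only [Subgroup.coe_mul, Subgroup.coe_inv] at h2
  rw [E_a, h2, coe_pw] at h1
  have h3 : (U s *ᵥ ![0, 1] : Fin 2 → ZMod p) = ![s, 1] := by
    ext i
    fin_cases i <;> simp [U, Matrix.mulVec, dotProduct, Fin.sum_univ_two]
  rw [h3] at h1
  unfold E at h1
  simp only [Matrix.cons_val_zero, Matrix.cons_val_one, pw_one] at h1
  have h4 : D.c u a = t := by
    rw [hu, D.c_pw_left, div_mul_cancel₀ _ hw]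
  have h5 := mul_right_cancel h1
  have hz1 : (D.z : G) ≠ 1 := fun hc => D.z_ne (Subtype.ext hc)
  rw [pw_inj (coe_pow_p P D _) hz1, h4] at h5
  rw [h5]
  exact hs

end Cfsg.Agent.H275.PlanesMain
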